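import Cfsg.Agent.Lib.Helper47.AxB
import Cfsg.Agent.Lib.Helper9.PPrimeCoreOf
import Cfsg.Agent.Lib.Helper22.CoprimeP
import Cfsg.Agent.Lib.Helper61.OmegaCoprime

/-!
# Control of `O_{q'}` by a coprime operator group (Flavell-type lemma)
-/

set_option autoImplicit false
set_option linter.unusedSectionVars false
open Cfsg Subgroup

namespace Cfsg.Agent.Lib.Helper47

open Cfsg.Agent.Lib.Helper9 Cfsg.Agent.Lib.Helper22

variable {G : Type*} [Group G] [Finite G] {p q : ℕ} [Fact p.Prime] [Fact q.Prime]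

/-- ambient form of `C_K(O_q(K)) ≤ O_q(K)` for solvable `K` with `O_{q'}(K) = 1`. -/
theorem inf_centralizer_pCoreOf_le {K : Subgroup G} (hsol : Group.IsSolvable ↥K)
    (hcore : pPrimeCoreOf q K = ⊥) : K ⊓ centralizer (pCoreOf q K : Set G) ≤ pCoreOf q K := by
  have h1 : pPrimeCore q ↥K = ⊥ := pPrimeCore_eq_bot_iff_pPrimeCoreOf.mpr hcore
  have h2 := Cfsg.Agent.Lib.Helper61.OmegaCoprime.centralizer_pCore_le (G := ↥K) (p := q) h1
  intro x hx
  rw [mem_inf] at hx
  have h3 : (⟨x, hx.1⟩ : ↥K) ∈ centralizer ((pCore q ↥K : Subgroup ↥K) : Set ↥K) := by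
    rw [mem_centralizer_iff]
    intro y hy
    apply Subtype.ext
    have : (y : G) ∈ pCoreOf q K := ⟨y, hy, rfl⟩
    exact mem_centralizer_iff.mp hx.2 _ this
  exact ⟨⟨x, hx.1⟩, h2 h3, rfl⟩

theorem coprime_of_not_dvd' {n : ℕ} (h : ¬ q ∣ n) : n.Coprime q :=
  ((Nat.Prime.coprime_iff_not_dvd (Fact.out : q.Prime)).2 h).symm

theorem not_dvd_of_coprime' {n : ℕ} (h : n.Coprime q) : ¬ q ∣ n :=
  (Nat.Prime.coprime_iff_not_dvd (Fact.out : q.Prime)).1 h.symm

/-- The core-free case. -/
theorem coreCtl_aux {H P X : Subgroup G} {z : G}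
    (hPH : P ≤ normalizer (H : Set G)) (hP : IsPGroup p P) (hH : ¬ p ∣ Nat.card H)
    (hsol : Group.IsSolvable ↥⁅H, P⁆) (hcore : pPrimeCoreOf q H = ⊥)
    (hzH : z ∈ H) (hz : IsPGroup q (zpowers z))
    (hXH : X ≤ H) (hXz : X ≤ centralizer ((zpowers z : Subgroup G) : Set G))
    (hXq : (Nat.card X).Coprime q)
    (hXn : H ⊓ centralizer ((zpowers z : Subgroup G) : Set G) ≤ normalizer (X : Set G))
    (hPX : P ≤ normalizer (X : Set G)) :
    ⁅X, P⁆ = ⊥ ∧ ∀ Y : Subgroup G, Y ≤ H ⊓ centralizer (P : Set G) →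
      H ⊓ centralizer (P : Set G) ≤ normalizer (Y : Set G) → (Nat.card Y).Coprime q →
      X ⊓ Y = ⊥ := by
  set K := ⁅H, P⁆ with hK
  set R := pCoreOf q K with hR
  have hKH : K ≤ H := le_normalizer_iff_commutator_le_left.mp hPH
  have hHK : H ≤ normalizer (K : Set G) := normalizer_commutator_ge_left H P
  have hPK : P ≤ normalizer (K : Set G) := normalizer_commutator_ge_right H P
  have hHR : H ≤ normalizer (R : Set G) := hHK.trans (normalizer_le_normalizer_pCoreOf K)
  have hPR : P ≤ normalizer (R : Set G) := hPK.trans (normalizer_le_normalizer_pCoreOf K)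
  have hRq : IsPGroup q R := pCoreOf_isPGroup K
  have hRK : R ≤ K := pCoreOf_le K
  have hKcore : pPrimeCoreOf q K = ⊥ := by
    have := pPrimeCoreOf_le_pPrimeCoreOf_of_normal (p := q) hKH hHK
    rw [hcore] at this
    exact le_bot_iff.mp this
  have hCK : K ⊓ centralizer (R : Set G) ≤ R := inf_centralizer_pCoreOf_le hsol hKcore
  have hRX : R ⊓ X = ⊥ := inf_eq_bot_of_isPGroup_of_coprime hRq hXq
  -- X centralizes R
  have hXR : X ≤ centralizer (R : Set G) := by
    intro a ha
    have hao : (orderOf a).Coprime q :=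
      Nat.Coprime.coprime_dvd_left (Subgroup.orderOf_dvd_natCard X ha) hXq
    have h1 := thompson_AxB (p := q) (R := R) (B := zpowers z) (a := a) hRq hz hao
      (hHR (hXH ha)) ((zpowers_le.mpr hzH).trans hHR) (hXz ha) (by
        intro x hx
        rw [mem_inf] at hx
        have hxn : x ∈ normalizer (X : Set G) := hXn (mem_inf.mpr ⟨hKH (hRK hx.1), hx.2⟩)
        have hc : x * a * x⁻¹ * a⁻¹ ∈ R ⊓ X := by
          rw [mem_inf]
          constructor
          · have h2 : a * x⁻¹ * a⁻¹ ∈ R :=
              le_normalizer_iff.mp hHR a (hXH ha) _ (inv_mem hx.1)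
            have h3 := mul_mem hx.1 h2
            simpa [mul_assoc] using h3
          · exact mul_mem ((mem_normalizer_iff.mp hxn a).mp ha) (inv_mem ha)
        rw [hRX, mem_bot] at hc
        show x * a = a * x
        have h4 : x * a * x⁻¹ * a⁻¹ * (a * x) = a * x := by rw [hc, one_mul]
        rw [← h4]; group)
    rw [mem_centralizer_iff]
    intro x hx
    exact h1 x hx
  have hXPX : ⁅X, P⁆ ≤ X := le_normalizer_iff_commutator_le_left.mp hPX
  refine ⟨?_, ?_⟩
  · have h1 : ⁅X, P⁆ ≤ K := commutator_mono hXH le_rfl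
    have h2 : ⁅X, P⁆ ≤ R := (le_inf h1 (hXPX.trans hXR)).trans hCK
    exact le_bot_iff.mp (hRX ▸ le_inf h2 hXPX)
  · intro Y hY hYn hYq
    set C0 := H ⊓ centralizer (R : Set G) with hC0
    set D := C0 ⊓ centralizer (P : Set G) with hD
    have hPC0 : P ≤ normalizer (C0 : Set G) := le_normalizer_inf_centralizer hPH hPR
    have hHC0 : H ≤ normalizer (C0 : Set G) :=
      le_normalizer_inf_centralizer Subgroup.le_normalizer hHR
    have hC0p : ¬ p ∣ Nat.card C0 := not_dvd_card_of_le inf_le_left hH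
    have hsplit : ⁅C0, P⁆ ⊔ D = C0 := commutator_sup_centralizer P C0 hP hC0p hPC0
    have hcomm : ⁅C0, P⁆ ≤ R := by
      have h1 : ⁅C0, P⁆ ≤ K := commutator_mono inf_le_left le_rfl
      have h2 : ⁅C0, P⁆ ≤ C0 := le_normalizer_iff_commutator_le_left.mp hPC0
      exact (le_inf h1 (h2.trans inf_le_right)).trans hCK
    set T := pPrimeCoreOf q D with hT
    have hTD : T ≤ D := pPrimeCoreOf_le D
    have hTn : C0 ≤ normalizer (T : Set G) := by
      rw [← hsplit]
      apply sup_le
      · -- `[C0,P] ≤ R` is centralized by `C0 ⊇ T`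
        intro x hx
        have hxR := hcomm hx
        rw [mem_normalizer_iff]
        intro t
        have key : ∀ t ∈ T, x * t * x⁻¹ = t := by
          intro t ht
          have h1 : t ∈ centralizer (R : Set G) := (hTD ht).1.2
          have h2 : x * t = t * x := mem_centralizer_iff.mp h1 x hxR
          rw [h2]; group
        constructor
        · intro ht
          rw [key t ht]; exact ht
        · intro ht
          have h3 := key _ ht
          have h4 : x * t * x⁻¹ = t := by
            have h5 : x * (x * t * x⁻¹) * x⁻¹ = x * t * x⁻¹ := h3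
            have h6 : x⁻¹ * (x * (x * t * x⁻¹) * x⁻¹) * x = x⁻¹ * (x * t * x⁻¹) * x := by rw [h5]
            have h7 : x⁻¹ * (x * (x * t * x⁻¹) * x⁻¹) * x = x * t * x⁻¹ := by group
            have h8 : x⁻¹ * (x * t * x⁻¹) * x = t := by group
            rw [h7, h8] at h6
            exact h6
          rw [← h4]; exact ht
      · exact le_normalizer_pPrimeCoreOf D
    have hTbot : T = ⊥ := by
      have h1 : T ≤ pPrimeCoreOf q C0 :=
        le_pPrimeCoreOf (hTD.trans inf_le_left) hTn (card_pPrimeCoreOf_coprime D)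
      have h2 := pPrimeCoreOf_le_pPrimeCoreOf_of_normal (p := q) (inf_le_left : C0 ≤ H) hHC0
      rw [hcore] at h2
      exact le_bot_iff.mp (h1.trans h2)
    have hDle : D ≤ H ⊓ centralizer (P : Set G) := by
      intro x hx
      exact mem_inf.mpr ⟨hx.1.1, hx.2⟩
    have hYD : Y ⊓ D ≤ T := by
      apply le_pPrimeCoreOf inf_le_right
      · exact le_normalizer_inf (hDle.trans hYn) Subgroup.le_normalizer
      · exact Nat.Coprime.coprime_dvd_left (card_dvd_of_le inf_le_left) hYq
    rw [hTbot] at hYD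
    apply le_bot_iff.mp
    refine le_trans ?_ hYD
    intro x hx
    rw [mem_inf] at hx
    refine mem_inf.mpr ⟨hx.2, mem_inf.mpr ⟨mem_inf.mpr ⟨hXH hx.1, hXR hx.1⟩, (hY hx.2).2⟩⟩

theorem coprime_card_map {G' : Type*} [Group G'] (f : G →* G') {X : Subgroup G}
    (h : (Nat.card X).Coprime q) : (Nat.card (X.map f)).Coprime q := by
  have h1 : Nat.card (X.map f) ∣ Nat.card X := by
    have hs : Function.Surjective (f.subgroupMap X) := f.subgroupMap_surjective X
    exact Subgroup.card_dvd_of_surjective _ hs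
  exact Nat.Coprime.coprime_dvd_left h1 h

/-- `O_{q'}(H / O_{q'}(H)) = 1`, in ambient form. -/
theorem pPrimeCoreOf_map_mk_eq_bot {H N : Subgroup G} [N.Normal] (hN : N = pPrimeCoreOf q H) :
    pPrimeCoreOf q (H.map (QuotientGroup.mk' N)) = ⊥ := by
  set π := QuotientGroup.mk' N with hπ
  set Tb := pPrimeCoreOf q (H.map π) with hTb
  set T := H ⊓ Tb.comap π with hT
  have hTq : (Nat.card T).Coprime q := by
    apply coprime_of_not_dvd'
    intro hdvd
    obtain ⟨t, ht⟩ := exists_prime_orderOf_dvd_card' (G := ↥T) q hdvd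
    have ht' : orderOf (t : G) = q := by rw [Subgroup.orderOf_coe]; exact ht
    have h1 : π (t : G) ∈ Tb := (mem_inf.mp t.2).2
    have h2 : orderOf (π (t : G)) ∣ q := ht' ▸ orderOf_map_dvd π (t : G)
    have h3 : (orderOf (π (t : G))).Coprime q :=
      Nat.Coprime.coprime_dvd_left (Subgroup.orderOf_dvd_natCard Tb h1)
        (card_pPrimeCoreOf_coprime _)
    have h4 : orderOf (π (t : G)) = 1 := Nat.Coprime.eq_one_of_dvd h3 h2
    have h5 : π (t : G) = 1 := orderOf_eq_one_iff.mp h4
    have h6 : (t : G) ∈ N := (QuotientGroup.eq_one_iff _).mp h5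
    have h7 : (orderOf (t : G)).Coprime q :=
      Nat.Coprime.coprime_dvd_left (Subgroup.orderOf_dvd_natCard N h6)
        (hN ▸ card_pPrimeCoreOf_coprime H)
    rw [ht'] at h7
    exact (Fact.out : q.Prime).one_lt.ne' ((Nat.coprime_self q).mp h7)
  have hTn : H ≤ normalizer (T : Set G) := by
    apply le_normalizer_inf Subgroup.le_normalizer
    rw [le_normalizer_iff]
    intro h hh k hk
    rw [mem_comap] at hk ⊢
    rw [map_mul, map_mul, map_inv]
    exact le_normalizer_iff.mp (le_normalizer_pPrimeCoreOf (p := q) (H.map π)) (π h)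
      (mem_map_of_mem _ hh) _ hk
  have hTN : T ≤ N := hN ▸ le_pPrimeCoreOf inf_le_left hTn hTq
  rw [eq_bot_iff]
  intro y hy
  obtain ⟨x, hx, rfl⟩ := pPrimeCoreOf_le (p := q) (H.map π) hy
  have : x ∈ T := mem_inf.mpr ⟨hx, hy⟩
  rw [mem_bot]
  exact (QuotientGroup.eq_one_iff _).mpr (hTN this)

/-- **Flavell-type control lemma.** -/
theorem coreCtl {H P : Subgroup G} [hHn : H.Normal] (hP : IsPGroup p P) (hH : ¬ p ∣ Nat.card H)
    (hsol : Group.IsSolvable ↥⁅H, P⁆) {z : G} (hzH : z ∈ H)
    (hzP : z ∈ centralizer (P : Set G)) (hz : IsPGroup q (zpowers z)) :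
    (pPrimeCoreOf q (H ⊓ centralizer ({z} : Set G)) ⊓ pPrimeCoreOf q (H ⊓ centralizer (P : Set G))) ⊔
      ⁅pPrimeCoreOf q (H ⊓ centralizer ({z} : Set G)), P⁆ ≤ pPrimeCoreOf q H := by
  set N := pPrimeCoreOf q H with hN
  have hNn : N.Normal := by
    rw [← normalizer_eq_top_iff, eq_top_iff]
    have := normalizer_le_normalizer_pPrimeCoreOf (p := q) H
    rwa [normalizer_eq_top_iff.mpr hHn] at this
  set π := QuotientGroup.mk' N with hπ
  have hcz : centralizer ({z} : Set G) = centralizer ((zpowers z : Subgroup G) : Set G) :=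
    (centralizer_zpowers z).symm
  rw [hcz]
  set X := pPrimeCoreOf q (H ⊓ centralizer ((zpowers z : Subgroup G) : Set G)) with hX
  set Y := pPrimeCoreOf q (H ⊓ centralizer (P : Set G)) with hY
  have hNq : (Nat.card N).Coprime q := card_pPrimeCoreOf_coprime H
  have hNH : N ≤ H := pPrimeCoreOf_le H
  have hHtop : ∀ A : Subgroup G, A ≤ normalizer (H : Set G) := fun A => by
    rw [normalizer_eq_top_iff.mpr hHn]; exact le_top
  have hzmap : (zpowers z).map π = zpowers (π z) := MonoidHom.map_zpowers π z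
  have e1 : H.map π ⊓ centralizer (((zpowers z).map π : Subgroup (G ⧸ N)) : Set (G ⧸ N)) =
      (H ⊓ centralizer ((zpowers z : Subgroup G) : Set G)).map π :=
    map_inf_centralizer_map (zpowers z) H N hz
      (not_dvd_of_coprime' (Nat.Coprime.coprime_dvd_left (card_dvd_of_le inf_le_right) hNq))
      (hHtop _)
  have e2 : H.map π ⊓ centralizer ((P.map π : Subgroup (G ⧸ N)) : Set (G ⧸ N)) =
      (H ⊓ centralizer (P : Set G)).map π :=
    map_inf_centralizer_map P H N hP (not_dvd_card_of_le inf_le_left hH) (hHtop _)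
  have hPz : P ≤ normalizer ((zpowers z : Subgroup G) : Set G) := by
    rw [le_normalizer_iff]
    intro a ha k hk
    have h1 : z ∈ centralizer (P : Set G) := hzP
    have h2 : zpowers z ≤ centralizer (P : Set G) := zpowers_le.mpr h1
    have h3 : a * k = k * a := mem_centralizer_iff.mp (h2 hk) a ha
    rw [h3]; simpa using hk
  have hPX : P ≤ normalizer (X : Set G) :=
    (le_normalizer_inf_centralizer (hHtop P) hPz).trans (normalizer_le_normalizer_pPrimeCoreOf _)
  have main := coreCtl_aux (p := p) (q := q) (H := H.map π) (P := P.map π) (X := X.map π) (z := π z)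
    (by
      have : (H.map π).Normal := hHn.map π (QuotientGroup.mk'_surjective N)
      rw [normalizer_eq_top_iff.mpr this]; exact le_top)
    (hP.map π)
    (by
      intro hd
      apply hH
      have hs : Function.Surjective (π.subgroupMap H) := π.subgroupMap_surjective H
      exact hd.trans (Subgroup.card_dvd_of_surjective _ hs))
    (by
      rw [← map_commutator]
      have hs : Function.Surjective (π.subgroupMap ⁅H, P⁆) := π.subgroupMap_surjective _
      exact Group.isSolvable_of_surjective hs)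
    (pPrimeCoreOf_map_mk_eq_bot hN)
    (mem_map_of_mem _ hzH)
    (by rw [← hzmap]; exact hz.map π)
    (map_mono ((pPrimeCoreOf_le _).trans inf_le_left))
    (by
      rw [← hzmap]
      have h1 : X.map π ≤ (H ⊓ centralizer ((zpowers z : Subgroup G) : Set G)).map π :=
        map_mono (pPrimeCoreOf_le _)
      rw [← e1] at h1
      exact h1.trans inf_le_right)
    (coprime_card_map π (card_pPrimeCoreOf_coprime _))
    (by
      rw [← hzmap, e1]
      exact (map_mono (le_normalizer_pPrimeCoreOf _)).trans (le_normalizer_map π)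
      )
    ((map_mono hPX).trans (le_normalizer_map π))
  have hker : ∀ A : Subgroup G, A.map π = ⊥ → A ≤ N := by
    intro A hA x hx
    have : π x ∈ A.map π := mem_map_of_mem _ hx
    rw [hA, mem_bot] at this
    exact (QuotientGroup.eq_one_iff _).mp this
  apply sup_le
  · apply hker
    have h2 := main.2 (Y.map π) (by rw [e2]; exact map_mono (pPrimeCoreOf_le _))
      (by
        rw [e2]
        exact (map_mono (le_normalizer_pPrimeCoreOf _)).trans (le_normalizer_map π))
      (coprime_card_map π (card_pPrimeCoreOf_coprime _))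
    exact le_bot_iff.mp (h2 ▸ (map_inf_le X Y π))
  · apply hker
    rw [map_commutator]
    exact main.1

end Cfsg.Agent.Lib.Helper47
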